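import Cfsg.Agent.DefectZeroTwist.Matrices
import Mathlib.GroupTheory.PGroup

/-!
# Normalised extensions of an irreducible representation with odd fixed space

`X` is an irreducible matrix representation of a normal subgroup `N`, `S` a `2`-subgroup with
`N ⊔ S = ⊤`, and the projection on the fixed space of `S ⊓ N` factors as `M * L` through an odd
dimension. Then `X` has exactly one extension to a stabilising subgroup `T ≥ N` whose restriction
to `S ⊓ T` has determinant `1` on that fixed space.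
-/

set_option autoImplicit false
set_option linter.unusedSectionVars false

namespace CfsgLib.DefectZeroTwist

open Matrix CfsgLib.FrobSchur

variable {G : Type*} [Group G] [Fintype G] {N : Subgroup G} [N.Normal] [Fintype N] {S : Subgroup G}
  {d r : ℕ}

/-- Conjugation by an element of the group, on the normal subgroup. -/
noncomputable abbrev cj (N : Subgroup G) [N.Normal] (g : G) : N →* N :=
  (MulAut.conjNormal g : MulAut N).toMonoidHom

theorem cj_coe (g : G) (m : N) : (cj N g m : G) = g * m * g⁻¹ := MulAut.conjNormal_apply g m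

theorem cj_cj (g h : G) (m : N) : cj N g (cj N h m) = cj N (g * h) m :=
  Subtype.ext (by simp only [cj_coe, _root_.mul_inv_rev]; group)

/-- The projection on the fixed space of `S ⊓ N`. -/
noncomputable def proj (S : Subgroup G) (X : N →* Matrix (Fin d) (Fin d) ℂ)
    [Fintype (S.subgroupOf N)] : Matrix (Fin d) (Fin d) ℂ :=
  (Nat.card (S.subgroupOf N) : ℂ)⁻¹ • ∑ q : S.subgroupOf N, X q

/-- The data: an irreducible representation with an odd dimensional fixed space. -/
structure Setting (N : Subgroup G) [N.Normal] [Fintype N] (S : Subgroup G)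
    [Fintype (S.subgroupOf N)] (d r : ℕ) where
  X : N →* Matrix (Fin d) (Fin d) ℂ
  irr : MatIrr X
  sup : N ⊔ S = ⊤
  two : IsPGroup 2 S
  M : Matrix (Fin d) (Fin r) ℂ
  L : Matrix (Fin r) (Fin d) ℂ
  ml : M * L = proj S X
  lm : L * M = 1
  odd : Odd r

variable [Fintype (S.subgroupOf N)] (D : Setting N S d r)

namespace Setting

theorem schur' {A : Matrix (Fin d) (Fin d) ℂ} (h : ∀ m, A * D.X m = D.X m * A) :
    ∃ c : ℂ, A = c • (1 : Matrix (Fin d) (Fin d) ℂ) := schur D.irr h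

theorem proj_mul_M : proj S D.X * D.M = D.M := by
  rw [← D.ml, Matrix.mul_assoc, D.lm, Matrix.mul_one]

theorem L_mul_proj : D.L * proj S D.X = D.L := by
  rw [← D.ml, ← Matrix.mul_assoc, D.lm, Matrix.one_mul]

theorem X_mul_proj {q : N} (hq : (q : G) ∈ S) : D.X q * proj S D.X = proj S D.X := by
  rw [proj, Matrix.mul_smul, Matrix.mul_sum]
  congr 1
  exact Fintype.sum_equiv (Equiv.mulLeft ⟨q, hq⟩) _ _ fun q' => (map_mul _ _ _).symm

theorem proj_mul_X {q : N} (hq : (q : G) ∈ S) : proj S D.X * D.X q = proj S D.X := by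
  rw [proj, Matrix.smul_mul, Matrix.sum_mul]
  congr 1
  exact Fintype.sum_equiv (Equiv.mulRight ⟨q, hq⟩) _ _ fun q' => (map_mul _ _ _).symm

theorem intertwiner_commute {s : G} (hs : s ∈ S) {A : Matrix (Fin d) (Fin d) ℂ}
    (h : ∀ m, A * D.X m = D.X (cj N s m) * A) : A * proj S D.X = proj S D.X * A := by
  have hmem : ∀ m : N, (m : G) ∈ S ↔ (cj N s m : G) ∈ S := fun m => by
    rw [cj_coe, S.mul_mem_cancel_right (S.inv_mem hs), S.mul_mem_cancel_left hs]
  rw [proj, Matrix.mul_smul, Matrix.smul_mul, Matrix.mul_sum, Matrix.sum_mul]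
  congr 1
  refine Fintype.sum_equiv ((MulAut.conjNormal s : MulAut N).toEquiv.subtypeEquiv hmem) _ _
    fun q => ?_
  exact h q

/-- The determinant on the fixed space. -/
noncomputable def detW (A : Matrix (Fin d) (Fin d) ℂ) : ℂ := (D.L * A * D.M).det

theorem detW_smul (c : ℂ) (A : Matrix (Fin d) (Fin d) ℂ) : D.detW (c • A) = c ^ r * D.detW A := by
  rw [detW, Matrix.mul_smul, Matrix.smul_mul, Matrix.det_smul, Fintype.card_fin, detW]

theorem detW_one : D.detW 1 = 1 := by rw [detW, Matrix.mul_one, D.lm, Matrix.det_one]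

theorem detW_mul {A : Matrix (Fin d) (Fin d) ℂ} (B : Matrix (Fin d) (Fin d) ℂ)
    (hA : A * proj S D.X = proj S D.X * A) : D.detW (A * B) = D.detW A * D.detW B := by
  rw [detW, detW, detW, ← Matrix.det_mul]
  congr 1
  rw [show D.L * A * D.M * (D.L * B * D.M) = D.L * (A * (D.M * D.L)) * B * D.M from by
    simp only [Matrix.mul_assoc], D.ml, hA, ← Matrix.mul_assoc D.L (proj S D.X) A, D.L_mul_proj, Matrix.mul_assoc D.L A B]

theorem detW_X {q : N} (hq : (q : G) ∈ S) : D.detW (D.X q) = 1 := by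
  rw [detW, ← D.proj_mul_M, ← Matrix.mul_assoc (D.L * D.X q), Matrix.mul_assoc D.L (D.X q),
    D.X_mul_proj hq, D.L_mul_proj, D.lm, Matrix.det_one]

theorem detW_ne_zero {s : G} {A : Matrix (Fin d) (Fin d) ℂ} (hs : s ∈ S)
    (hu : IsUnit A.det) (h : ∀ m, A * D.X m = D.X (cj N s m) * A) : D.detW A ≠ 0 := by
  intro h0
  have h1 := D.detW_mul A⁻¹ (D.intertwiner_commute hs h)
  rw [Matrix.mul_nonsing_inv _ hu, D.detW_one, h0, zero_mul] at h1
  exact one_ne_zero h1

/-- A normalised extension. -/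
structure IsNorm (T : Subgroup G) (Y : T →* Matrix (Fin d) (Fin d) ℂ) : Prop where
  ext : ∀ (m : N) (hm : (m : G) ∈ T), Y ⟨m, hm⟩ = D.X m
  det : ∀ s : T, (s : G) ∈ S → D.detW (Y s) = 1

theorem IsNorm.intertwines {T : Subgroup G} {Y : T →* Matrix (Fin d) (Fin d) ℂ}
    (hY : D.IsNorm T Y) (hNT : N ≤ T) (t : T) (m : N) :
    Y t * D.X m = D.X (cj N (t : G) m) * Y t := by
  rw [← hY.ext m (hNT m.2), ← hY.ext _ (hNT (cj N (t : G) m).2), ← map_mul, ← map_mul]
  congr 1
  exact Subtype.ext (by simp [cj_coe])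

include D in
theorem exists_mul_eq {T : Subgroup G} (hNT : N ≤ T) (t : T) :
    ∃ m : N, ∃ s : G, s ∈ S ∧ s ∈ T ∧ (m : G) * s = t := by
  have h1 : (t : G) ∈ N ⊔ S := by rw [D.sup]; trivial
  obtain ⟨m, hm, s, hs, he⟩ := Subgroup.mem_sup_of_normal_left.1 h1
  refine ⟨⟨m, hm⟩, s, hs, ?_, he⟩
  have : s = m⁻¹ * t := by rw [← he]; group
  rw [this]
  exact T.mul_mem (T.inv_mem (hNT hm)) t.2

include D in
theorem eq_one_of_pow {c : ℂ} {a : ℕ} (h1 : c ^ r = 1) (h2 : c ^ 2 ^ a = 1) : c = 1 := by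
  obtain ⟨k, hk⟩ := D.odd
  have h3 := pow_shift h1 a
  rw [show r + 1 = 2 * (k + 1) by omega, mul_pow, pow_mul, h2, one_pow] at h3
  exact h3.symm

include D in
theorem pow_card_two (s : S) : ∃ a : ℕ, s ^ 2 ^ a = 1 := by
  obtain ⟨k, hk⟩ := D.two s
  exact ⟨k, hk⟩

theorem norm_unique {T : Subgroup G} (hNT : N ≤ T) {Y Y' : T →* Matrix (Fin d) (Fin d) ℂ}
    (hY : D.IsNorm T Y) (hY' : D.IsNorm T Y') : Y = Y' := by
  have key : ∀ s : T, (s : G) ∈ S → Y s = Y' s := by
    intro s hs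
    obtain ⟨c, hc⟩ := D.schur' (A := Y s⁻¹ * Y' s) fun m => by
      rw [Matrix.mul_assoc, hY'.intertwines D hNT s m, ← Matrix.mul_assoc,
        hY.intertwines D hNT s⁻¹, cj_cj, Subgroup.coe_inv, inv_mul_cancel, Matrix.mul_assoc]
      rw [show cj N (1 : G) m = m from Subtype.ext (by simp [cj_coe])]
    have hc' : Y' s = c • Y s := by
      calc Y' s = Y s * (Y s⁻¹ * Y' s) := by rw [← Matrix.mul_assoc, X_mul_inv, Matrix.one_mul]
        _ = _ := by rw [hc, Matrix.mul_smul, Matrix.mul_one]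
    have h1 : c ^ r = 1 := by
      have := hY'.det s hs
      rwa [hc', D.detW_smul, hY.det s hs, mul_one] at this
    obtain ⟨a, ha⟩ := D.pow_card_two ⟨s, hs⟩
    have hs1 : s ^ 2 ^ a = 1 := Subtype.ext (by
      simpa using congrArg Subtype.val ha)
    have h2 : c ^ 2 ^ a = 1 := by
      have h := congrArg (· ^ 2 ^ a) hc'
      simp only [smul_pow, ← map_pow, hs1, map_one] at h
      have hd : Nonempty (Fin d) := D.irr.1
      obtain ⟨i⟩ := hd
      have := congrFun (congrFun h i) i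
      simpa using this.symm
    rw [hc', D.eq_one_of_pow h1 h2, one_smul]
  refine MonoidHom.ext fun t => ?_
  obtain ⟨m, s, hs, hsT, he⟩ := D.exists_mul_eq hNT t
  have ht : t = ⟨(m : G), hNT m.2⟩ * ⟨s, hsT⟩ := Subtype.ext he.symm
  rw [ht, map_mul, map_mul, hY.ext, hY'.ext, key ⟨s, hsT⟩ hs]

theorem exists_norm {T : Subgroup G} (hNT : N ≤ T)
    (hinv : ∀ t ∈ T, ∀ m, (D.X (cj N t m)).trace = (D.X m).trace) :
    ∃ Y : T →* Matrix (Fin d) (Fin d) ℂ, D.IsNorm T Y := by
  classical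
  haveI := D.irr.1
  have hr : 0 < r := D.odd.pos
  -- normalised intertwiners
  have hA : ∀ s : (S ⊓ T : Subgroup G), ∃ A : Matrix (Fin d) (Fin d) ℂ, IsUnit A.det ∧
      (∀ m, A * D.X m = D.X (cj N (s : G) m) * A) ∧ D.detW A = 1 := by
    intro s
    obtain ⟨A, hu, hA⟩ := exists_intertwiner D.X (D.X.comp (cj N (s : G))) D.irr
      (fun m => hinv _ s.2.2 m)
    obtain ⟨c, hc⟩ := IsAlgClosed.exists_pow_nat_eq (D.detW A)⁻¹ hr
    have h0 := D.detW_ne_zero s.2.1 hu hA
    have hc0 : c ≠ 0 := by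
      rintro rfl
      rw [zero_pow hr.ne', eq_comm, inv_eq_zero] at hc
      exact h0 hc
    refine ⟨c • A, ?_, fun m => by rw [Matrix.smul_mul, Matrix.mul_smul, hA m]; rfl, ?_⟩
    · rw [Matrix.det_smul]
      exact (isUnit_iff_ne_zero.2 (pow_ne_zero _ hc0)).mul hu
    · rw [D.detW_smul, hc, inv_mul_cancel₀ h0]
  choose A hAu hAi hAd using hA
  have hcomm : ∀ s, A s * proj S D.X = proj S D.X * A s := fun s =>
    D.intertwiner_commute s.2.1 (hAi s)
  have hA0 : ∀ s, A s ≠ 0 := fun s h0 => by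
    have h1 := hAd s
    haveI : Nonempty (Fin r) := ⟨⟨0, hr⟩⟩
    rw [h0, detW, Matrix.mul_zero, Matrix.zero_mul, Matrix.det_zero] at h1
    exact zero_ne_one h1
  -- the cocycle
  have hc : ∀ s t, ∃ c : ℂ, A s * A t = c • A (s * t) ∧ c ^ r = 1 := by
    intro s t
    obtain ⟨c, hc⟩ := D.schur' (A := (A (s * t))⁻¹ * (A s * A t)) fun m => by
      have e : (A (s * t))⁻¹ * D.X (cj N ((s * t : (S ⊓ T : Subgroup G)) : G) m) =
          D.X m * (A (s * t))⁻¹ := by
        calc (A (s * t))⁻¹ * D.X (cj N ((s * t : (S ⊓ T : Subgroup G)) : G) m)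
            = (A (s * t))⁻¹ * (D.X (cj N ((s * t : (S ⊓ T : Subgroup G)) : G) m) * A (s * t)) *
                (A (s * t))⁻¹ := by
              rw [Matrix.mul_assoc, Matrix.mul_assoc, Matrix.mul_nonsing_inv _ (hAu _),
                Matrix.mul_one]
          _ = _ := by
              rw [← hAi, ← Matrix.mul_assoc, Matrix.nonsing_inv_mul _ (hAu _), Matrix.one_mul]
      rw [Matrix.mul_assoc, Matrix.mul_assoc, hAi, ← Matrix.mul_assoc (A s), hAi, cj_cj,
        ← Subgroup.coe_mul, Matrix.mul_assoc, ← Matrix.mul_assoc (A (s * t))⁻¹, e,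
        Matrix.mul_assoc]
    have hc' : A s * A t = c • A (s * t) := by
      calc A s * A t = A (s * t) * ((A (s * t))⁻¹ * (A s * A t)) := by
            rw [← Matrix.mul_assoc, Matrix.mul_nonsing_inv _ (hAu _), Matrix.one_mul]
        _ = _ := by rw [hc, Matrix.mul_smul, Matrix.mul_one]
    refine ⟨c, hc', ?_⟩
    have h1 := congrArg D.detW hc'
    rw [D.detW_mul _ (hcomm s), hAd, hAd, D.detW_smul, hAd, one_mul, mul_one] at h1
    exact h1.symm
  choose c hc hcr using hc
  have hc0 : ∀ s t, c s t ≠ 0 := fun s t h0 => by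
    simpa [h0, zero_pow hr.ne'] using hcr s t
  have hcoc : ∀ s t u, c s t * c (s * t) u = c t u * c s (t * u) := by
    intro s t u
    have h := Matrix.mul_assoc (A s) (A t) (A u)
    rw [hc, Matrix.smul_mul, hc, hc, Matrix.mul_smul, hc, smul_smul, smul_smul, mul_assoc s] at h
    exact smul_left_injective ℂ (hA0 _) h
  set f : (S ⊓ T : Subgroup G) → ℂ := fun s => ∏ u, c s u with hf
  have hfr : ∀ s, f s ^ r = 1 := fun s => by
    rw [hf, ← Finset.prod_pow]; exact Finset.prod_eq_one fun u _ => hcr s u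
  have hf0 : ∀ s, f s ≠ 0 := fun s => Finset.prod_ne_zero_iff.2 fun u _ => hc0 s u
  obtain ⟨a, ha⟩ := IsPGroup.iff_card.1 (D.two.to_le (inf_le_left : S ⊓ T ≤ S))
  have hfc : ∀ s t, c s t ^ 2 ^ a * f (s * t) = f s * f t := by
    intro s t
    have h : ∏ u, c s t * c (s * t) u = ∏ u, c t u * c s (t * u) :=
      Finset.prod_congr rfl fun u _ => hcoc s t u
    rw [Finset.prod_mul_distrib, Finset.prod_mul_distrib, Finset.prod_const, Finset.card_univ,
      ← Nat.card_eq_fintype_card, ha, Fintype.prod_equiv (Equiv.mulLeft t) (fun u => c s (t * u))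
        (fun u => c s u) (fun u => rfl)] at h
    rw [h, mul_comm]
  obtain ⟨k, hk⟩ : ∃ k, r + 1 = 2 * k := ⟨(r + 1) / 2, by
    obtain ⟨j, hj⟩ := D.odd; omega⟩
  set e : (S ⊓ T : Subgroup G) → ℂ := fun s => f s ^ k ^ a with he
  have hec : ∀ s t, c s t * e (s * t) = e s * e t := fun s t => by
    simp only [he]
    rw [← mul_pow, ← hfc, mul_pow, ← pow_mul, ← mul_pow 2 k, ← hk, pow_shift (hcr s t)]
  have he0 : ∀ s, e s ≠ 0 := fun s => pow_ne_zero _ (hf0 s)
  set R : (S ⊓ T : Subgroup G) → Matrix (Fin d) (Fin d) ℂ := fun s => (e s)⁻¹ • A s with hR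
  have hRmul : ∀ s t, R (s * t) = R s * R t := fun s t => by
    simp only [hR]
    rw [Matrix.smul_mul, Matrix.mul_smul, smul_smul, hc, smul_smul]
    congr 1
    have := hec s t
    field_simp [he0 s, he0 t, he0 (s * t)]
    linear_combination -this
  have hR1 : R 1 = 1 := by
    have hu : IsUnit (R 1).det := by
      simp only [hR, Matrix.det_smul]
      exact (isUnit_iff_ne_zero.2 (pow_ne_zero _ (inv_ne_zero (he0 1)))).mul (hAu 1)
    have h := hRmul 1 1
    rw [one_mul] at h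
    calc R 1 = (R 1)⁻¹ * (R 1 * R 1) := by
          rw [← Matrix.mul_assoc, Matrix.nonsing_inv_mul _ hu, Matrix.one_mul]
      _ = 1 := by rw [← h, Matrix.nonsing_inv_mul _ hu]
  let Rh : (S ⊓ T : Subgroup G) →* Matrix (Fin d) (Fin d) ℂ :=
    { toFun := R, map_one' := hR1, map_mul' := hRmul }
  have hRd : ∀ s, D.detW (R s) = 1 := fun s => by
    simp only [hR]
    rw [D.detW_smul, hAd, mul_one, inv_pow, show e s ^ r = 1 by
      simp only [he]; rw [← pow_mul, mul_comm, pow_mul, hfr, one_pow], inv_one]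
  have hRi : ∀ s m, R s * D.X m = D.X (cj N ((s : _) : G) m) * R s := fun s m => by
    simp only [hR]
    rw [Matrix.smul_mul, Matrix.mul_smul, hAi]
  have hagree : ∀ (q : N) (hq : (q : G) ∈ S ⊓ T), R ⟨q, hq⟩ = D.X q := by
    intro q hq
    obtain ⟨l, hl⟩ := D.schur' (A := D.X q⁻¹ * R ⟨q, hq⟩) fun m => by
      rw [Matrix.mul_assoc, hRi, ← Matrix.mul_assoc, ← Matrix.mul_assoc, ← map_mul, ← map_mul]
      congr 2
      exact Subtype.ext (by simp [cj_coe, mul_assoc])
    have hl' : R ⟨q, hq⟩ = l • D.X q := by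
      calc R ⟨q, hq⟩ = D.X q * (D.X q⁻¹ * R ⟨q, hq⟩) := by
            rw [← Matrix.mul_assoc, X_mul_inv, Matrix.one_mul]
        _ = _ := by rw [hl, Matrix.mul_smul, Matrix.mul_one]
    have h1 : l ^ r = 1 := by
      have := hRd ⟨q, hq⟩
      rwa [hl', D.detW_smul, D.detW_X hq.1, mul_one] at this
    have hqa : (⟨q, hq⟩ : (S ⊓ T : Subgroup G)) ^ 2 ^ a = 1 := by rw [← ha]; exact pow_card_eq_one'
    have hq' : q ^ 2 ^ a = 1 := Subtype.ext (by simpa using congrArg Subtype.val hqa)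
    have h2 : l ^ 2 ^ a = 1 := by
      have h := congrArg (· ^ 2 ^ a) hl'
      simp only [smul_pow, ← map_pow, hq', map_one] at h
      rw [show R ⟨q, hq⟩ ^ 2 ^ a = 1 from (map_pow Rh _ _).symm.trans (by rw [hqa, map_one])] at h
      obtain ⟨i⟩ := D.irr.1
      simpa using (congrFun (congrFun h i) i).symm
    rw [hl', D.eq_one_of_pow h1 h2, one_smul]
  -- gluing
  choose mt st hst hstT he' using D.exists_mul_eq hNT
  set sT : T → (S ⊓ T : Subgroup G) := fun t => ⟨st t, hst t, hstT t⟩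
  have hwd : ∀ (t : T) (m : N) (s : (S ⊓ T : Subgroup G)), (m : G) * s = t →
      D.X (mt t) * R (sT t) = D.X m * R s := by
    intro t m s h
    have hq : (((mt t)⁻¹ * m : N) : G) = (sT t : G) * (s : G)⁻¹ := by
      show ((mt t : G))⁻¹ * (m : G) = st t * (s : G)⁻¹
      rw [eq_mul_inv_iff_mul_eq, mul_assoc, h, ← he' t]; group
    have hmem : (((mt t)⁻¹ * m : N) : G) ∈ S ⊓ T := by
      rw [hq]; exact Subgroup.mul_mem _ (sT t).2 (Subgroup.inv_mem _ s.2)
    have h2 : (sT t) = ⟨_, hmem⟩ * s := Subtype.ext (by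
      show (sT t : G) = (((mt t)⁻¹ * m : N) : G) * (s : G)
      rw [hq, inv_mul_cancel_right])
    rw [h2, hRmul, hagree, ← Matrix.mul_assoc, ← map_mul, mul_inv_cancel_left]
  let Y : T →* Matrix (Fin d) (Fin d) ℂ :=
    { toFun := fun t => D.X (mt t) * R (sT t)
      map_one' := by rw [hwd 1 1 1 (by simp), map_one, hR1, Matrix.one_mul]
      map_mul' := fun t u => by
        rw [hwd (t * u) (mt t * cj N (st t) (mt u)) (sT t * sT u) (by
          show (mt t : G) * (cj N (st t) (mt u) : G) * (st t * st u) = (t : G) * u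
          rw [cj_coe, ← he' t, ← he' u]; group), map_mul, hRmul]
        simp only [Matrix.mul_assoc]
        congr 1
        rw [← Matrix.mul_assoc (R (sT t)), hRi, Matrix.mul_assoc] }
  refine ⟨Y, fun m hm => ?_, fun s hs => ?_⟩
  · show D.X (mt _) * R (sT _) = _
    rw [hwd ⟨m, hm⟩ m 1 (by simp), hR1, Matrix.mul_one]
  · show D.detW (D.X (mt s) * R (sT s)) = 1
    rw [hwd s 1 ⟨s, hs, s.2⟩ (by simp), map_one, Matrix.one_mul, hRd]

end Setting

end CfsgLib.DefectZeroTwist
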