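import Cfsg.Agent.DefectZeroTwist.Extend
import Cfsg.Prelude.Def_Characters

/-!
# The twisted indicator of the normalised extension is one
-/

set_option autoImplicit false
set_option linter.unusedSectionVars false

namespace CfsgLib.DefectZeroTwist

open Matrix CfsgLib.FrobSchur

variable {G : Type*} [Group G] [Fintype G] {N : Subgroup G} [N.Normal] [Fintype N] {S : Subgroup G}
  {d r : ℕ} [Fintype (S.subgroupOf N)] (D : Setting N S d r)

namespace Setting

variable {T : Subgroup G} [Fintype T] (hNT : N ≤ T) {Y : T →* Matrix (Fin d) (Fin d) ℂ}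
  (hY : D.IsNorm T Y)

include hNT hY

theorem matIrr_norm : MatIrr Y :=
  ⟨D.irr.1, fun W hW => D.irr.2 W fun m v hv => by
    rw [← hY.ext m (hNT m.2)]; exact hW _ v hv⟩

/-- For an element `x` of `S` twisting `D.X` into its dual, the extension has an invariant form
with symmetry `+1`. -/
theorem exists_form {x : G} (hx : x ∈ S)
    (htw : ∀ m, (D.X (cj N x m⁻¹)).trace = (D.X m).trace)
    (hxT : ∀ t : T, x * t * x⁻¹ ∈ T) (hz : x * x ∈ T) :
    ∃ B : Matrix (Fin d) (Fin d) ℂ, IsUnit B.det ∧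
      (∀ t : T, B * Y t = (Y ⟨x * (t : G) * x⁻¹, hxT t⟩⁻¹)ᵀ * B) ∧
      Bᵀ * Y ⟨x * x, hz⟩ = B := by
  have hr : 0 < r := D.odd.pos
  let X' : N →* Matrix (Fin d) (Fin d) ℂ :=
    { toFun := fun m => (D.X (cj N x m⁻¹))ᵀ
      map_one' := by simp
      map_mul' := fun a b => by
        rw [← Matrix.transpose_mul, ← map_mul, ← map_mul, ← _root_.mul_inv_rev] }
  obtain ⟨B, hB, hBX⟩ := exists_intertwiner D.X X' D.irr
    (fun m => (Matrix.trace_transpose _).trans (htw m))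
  have hBX' : ∀ m, B * D.X m = (D.X (cj N x m⁻¹))ᵀ * B := hBX
  refine ⟨B, hB, ?_⟩
  set P := proj S D.X with hPdef
  have hBP : B * P = Pᵀ * B := by
    have hmem : ∀ m : N, (m : G) ∈ S ↔ (cj N x m⁻¹ : G) ∈ S := fun m => by
      rw [cj_coe, S.mul_mem_cancel_right (S.inv_mem hx), S.mul_mem_cancel_left hx,
        Subgroup.coe_inv, inv_mem_iff]
    rw [hPdef, proj, Matrix.transpose_smul, Matrix.mul_smul, Matrix.smul_mul, Matrix.mul_sum,
      Matrix.transpose_sum, Matrix.sum_mul]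
    congr 1
    exact Fintype.sum_equiv
      (((Equiv.inv N).trans (MulAut.conjNormal x : MulAut N).toEquiv).subtypeEquiv hmem) _ _
      fun q => hBX' q
  have hBP' : B⁻¹ * Pᵀ = P * B⁻¹ := by
    calc B⁻¹ * Pᵀ = B⁻¹ * (Pᵀ * B) * B⁻¹ := by
          rw [Matrix.mul_assoc, Matrix.mul_assoc, Matrix.mul_nonsing_inv _ hB, Matrix.mul_one]
      _ = _ := by rw [← hBP, ← Matrix.mul_assoc, Matrix.nonsing_inv_mul _ hB, Matrix.one_mul]
  set BW := D.Mᵀ * B * D.M with hBW
  set K := D.L * B⁻¹ * D.Lᵀ with hK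
  have hBM : B * D.M = D.Lᵀ * BW := by
    calc B * D.M = B * (P * D.M) := by rw [hPdef, D.proj_mul_M]
      _ = Pᵀ * (B * D.M) := by rw [← Matrix.mul_assoc, hBP, Matrix.mul_assoc]
      _ = _ := by
        rw [hPdef, ← D.ml, Matrix.transpose_mul, Matrix.mul_assoc, hBW]
        simp only [Matrix.mul_assoc]
  have hKBW : K * BW = 1 := by
    calc K * BW = D.L * B⁻¹ * (D.Lᵀ * BW) := by rw [hK]; simp only [Matrix.mul_assoc]
      _ = 1 := by
        rw [← hBM, Matrix.mul_assoc, ← Matrix.mul_assoc B⁻¹, Matrix.nonsing_inv_mul _ hB,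
          Matrix.one_mul, D.lm]
  have hdet : K.det * BW.det = 1 := by rw [← Matrix.det_mul, hKBW, Matrix.det_one]
  -- the dual extension equals the extension
  let cx : T → T := fun t => ⟨x * (t : G) * x⁻¹, hxT t⟩
  have cx_mul : ∀ a b, cx (a * b) = cx a * cx b := fun a b => Subtype.ext (by simp [cx, mul_assoc])
  have cx_one : cx 1 = 1 := Subtype.ext (by simp [cx])
  let Y' : T →* Matrix (Fin d) (Fin d) ℂ :=
    { toFun := fun t => B⁻¹ * (Y (cx t)⁻¹)ᵀ * B
      map_one' := by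
        simp [cx_one, Matrix.nonsing_inv_mul _ hB]
      map_mul' := fun a b => by
        rw [cx_mul, _root_.mul_inv_rev, map_mul, Matrix.transpose_mul]
        simp only [Matrix.mul_assoc]
        rw [← Matrix.mul_assoc B B⁻¹, Matrix.mul_nonsing_inv _ hB, Matrix.one_mul] }
  have hY' : D.IsNorm T Y' := by
    refine ⟨fun m hm => ?_, fun s hs => ?_⟩
    · show B⁻¹ * (Y (cx ⟨m, hm⟩)⁻¹)ᵀ * B = D.X m
      have e : (cx ⟨(m : G), hm⟩)⁻¹ = ⟨(cj N x m⁻¹ : G), hNT (cj N x m⁻¹).2⟩ :=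
        Subtype.ext (by simp [cx, cj_coe, mul_assoc])
      rw [e, hY.ext, Matrix.mul_assoc, ← hBX', ← Matrix.mul_assoc, Matrix.nonsing_inv_mul _ hB,
        Matrix.one_mul]
    · show D.detW (B⁻¹ * (Y (cx s)⁻¹)ᵀ * B) = 1
      set A := Y (cx s)⁻¹ with hAdef
      have hsS : (((cx s)⁻¹ : T) : G) ∈ S :=
        S.inv_mem (S.mul_mem (S.mul_mem hx hs) (S.inv_mem hx))
      have hAP : A * P = P * A := D.intertwiner_commute hsS (hY.intertwines D hNT _)
      have hAT : Aᵀ * Pᵀ = Pᵀ * Aᵀ := by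
        rw [← Matrix.transpose_mul, ← Matrix.transpose_mul, hAP]
      have hPL : Pᵀ * D.Lᵀ = D.Lᵀ := by
        rw [← Matrix.transpose_mul, hPdef, D.L_mul_proj]
      have hLB : D.L * B⁻¹ * Pᵀ = K * D.Mᵀ := by
        rw [hK, hPdef, ← D.ml, Matrix.transpose_mul]
        simp only [Matrix.mul_assoc]
      have e : D.L * (B⁻¹ * Aᵀ * B) * D.M = K * (D.L * A * D.M)ᵀ * BW := by
        calc D.L * (B⁻¹ * Aᵀ * B) * D.M = D.L * B⁻¹ * Aᵀ * (B * D.M) := by
              simp only [Matrix.mul_assoc]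
          _ = D.L * B⁻¹ * Aᵀ * (Pᵀ * D.Lᵀ) * BW := by
              rw [hBM, hPL]; simp only [Matrix.mul_assoc]
          _ = D.L * B⁻¹ * Pᵀ * Aᵀ * D.Lᵀ * BW := by
              rw [← Matrix.mul_assoc (D.L * B⁻¹ * Aᵀ) Pᵀ, Matrix.mul_assoc (D.L * B⁻¹) Aᵀ, hAT]
              simp only [Matrix.mul_assoc]
          _ = _ := by
              rw [hLB, Matrix.transpose_mul, Matrix.transpose_mul]
              simp only [Matrix.mul_assoc]
      have hd : (D.L * A * D.M).det = 1 := hY.det _ hsS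
      rw [detW, e, Matrix.det_mul, Matrix.det_mul, Matrix.det_transpose, hd, mul_one, hdet]
  have hform : ∀ t : T, B * Y t = (Y (cx t)⁻¹)ᵀ * B := by
    intro t
    have h : B⁻¹ * (Y (cx t)⁻¹)ᵀ * B = Y t := DFunLike.congr_fun (D.norm_unique hNT hY' hY) t
    rw [← h, ← Matrix.mul_assoc, ← Matrix.mul_assoc, Matrix.mul_nonsing_inv _ hB, Matrix.one_mul]
  refine ⟨hform, ?_⟩
  -- the symmetry
  set z : T := ⟨x * x, hz⟩ with hzdef
  have htr : ∀ t : T, Bᵀ * Y (cx t)⁻¹ = (Y t)ᵀ * Bᵀ := fun t => by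
    rw [← Matrix.transpose_mul, hform, Matrix.transpose_mul, Matrix.transpose_transpose]
  have hzz : cx z = z := Subtype.ext (by simp [cx, z, mul_assoc])
  set C := Bᵀ * Y z with hC
  have hCint : ∀ t, C * Y t = (Y (cx t)⁻¹)ᵀ * C := by
    intro t
    have e : z * t = (cx (cx t)⁻¹)⁻¹ * z := Subtype.ext (by simp [cx, z, mul_assoc])
    rw [hC, Matrix.mul_assoc, ← map_mul, e, map_mul, ← Matrix.mul_assoc, htr, Matrix.mul_assoc]
  obtain ⟨ε, hε⟩ := schur (matIrr_norm D hNT hY) (A := B⁻¹ * C) fun t => by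
    have hinv : B⁻¹ * (Y (cx t)⁻¹)ᵀ = Y t * B⁻¹ := by
      calc B⁻¹ * (Y (cx t)⁻¹)ᵀ = B⁻¹ * ((Y (cx t)⁻¹)ᵀ * B) * B⁻¹ := by
            rw [Matrix.mul_assoc, Matrix.mul_assoc, Matrix.mul_nonsing_inv _ hB, Matrix.mul_one]
        _ = _ := by rw [← hform, ← Matrix.mul_assoc, Matrix.nonsing_inv_mul _ hB, Matrix.one_mul]
    rw [Matrix.mul_assoc, hCint, ← Matrix.mul_assoc, hinv, Matrix.mul_assoc]
  have hCε : C = ε • B := by
    calc C = B * (B⁻¹ * C) := by
          rw [← Matrix.mul_assoc, Matrix.mul_nonsing_inv _ hB, Matrix.one_mul]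
      _ = _ := by rw [hε, Matrix.mul_smul, Matrix.mul_one]
  have hB0 : BW.det ≠ 0 := fun h => by simp [h] at hdet
  have hzS : (z : G) ∈ S := S.mul_mem hx hx
  have h1 : ε ^ r = 1 := by
    have e : D.Mᵀ * C * D.M = BWᵀ * (D.L * Y z * D.M) := by
      have hcomm : Y z * P = P * Y z := D.intertwiner_commute hzS (hY.intertwines D hNT _)
      calc D.Mᵀ * C * D.M = D.Mᵀ * Bᵀ * (Y z * (P * D.M)) := by
            rw [hPdef, D.proj_mul_M, hC]; simp only [Matrix.mul_assoc]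
        _ = D.Mᵀ * Bᵀ * (P * (Y z * D.M)) := by
            rw [← Matrix.mul_assoc (Y z), hcomm]; simp only [Matrix.mul_assoc]
        _ = _ := by
            rw [hPdef, ← D.ml, hBW, Matrix.transpose_mul, Matrix.transpose_mul,
              Matrix.transpose_transpose]
            simp only [Matrix.mul_assoc]
    have hd : (D.L * Y z * D.M).det = 1 := hY.det _ hzS
    have h := congrArg Matrix.det e
    rw [hCε, Matrix.mul_smul, Matrix.smul_mul, ← hBW, Matrix.det_smul, Fintype.card_fin,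
      Matrix.det_mul, Matrix.det_transpose, hd, mul_one] at h
    exact mul_right_cancel₀ hB0 (h.trans (one_mul _).symm)
  have hinvz : B * Y z = (Y z⁻¹)ᵀ * B := by rw [hform, hzz]
  have h2 : ε ^ 2 ^ 1 = 1 := by
    have hT : Cᵀ = ε • Bᵀ := by rw [hCε, Matrix.transpose_smul]
    rw [hC, Matrix.transpose_mul, Matrix.transpose_transpose] at hT
    have e1 : B = ε • ((Y z⁻¹)ᵀ * Bᵀ) := by
      rw [← Matrix.mul_smul, ← hT, ← Matrix.mul_assoc, ← Matrix.transpose_mul, X_mul_inv,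
        Matrix.transpose_one, Matrix.one_mul]
    have e2 : (Y z⁻¹)ᵀ * Bᵀ = ε • B := by
      have : Bᵀ = (ε • B) * Y z⁻¹ := by
        rw [← hCε, hC, Matrix.mul_assoc, X_mul_inv, Matrix.mul_one]
      rw [this, Matrix.smul_mul, Matrix.mul_smul, ← Matrix.mul_assoc, ← hinvz, Matrix.mul_assoc,
        X_mul_inv, Matrix.mul_one]
    rw [e2, smul_smul] at e1
    have h3 : (ε * ε - 1) • B = 0 := by rw [sub_smul, one_smul, ← e1, sub_self]
    rcases smul_eq_zero.1 h3 with h4 | h4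
    · rw [pow_one, sq]; exact sub_eq_zero.1 h4
    · exfalso; apply hB0; simp [hBW, h4, Matrix.det_zero, Fin.pos_iff_nonempty.1 hr]
  rw [hCε, D.eq_one_of_pow h1 h2, one_smul]

/-- The twisted indicator is one. -/
theorem sum_twisted {x : G} (hx : x ∈ S)
    (htw : ∀ m, (D.X (cj N x m⁻¹)).trace = (D.X m).trace)
    (hxT : ∀ t : T, x * t * x⁻¹ ∈ T) (hz : x * x ∈ T) :
    ∑ t : T, (Y (⟨x * (t : G) * x⁻¹, hxT t⟩ * ⟨x * x, hz⟩ * t)).trace = Nat.card T := by
  haveI := D.irr.1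
  obtain ⟨B, hB, hform, hsym⟩ := D.exists_form hNT hY hx htw hxT hz
  have key : ∀ t : T, (Y (⟨x * (t : G) * x⁻¹, hxT t⟩ * ⟨x * x, hz⟩ * t)).trace =
      ((B⁻¹)ᵀ * (Y t⁻¹)ᵀ * B * Y t).trace := by
    intro t
    have h := hform t⁻¹
    have e : (⟨x * ((t⁻¹ : T) : G) * x⁻¹, hxT t⁻¹⟩ : T)⁻¹ = ⟨x * (t : G) * x⁻¹, hxT t⟩ :=
      Subtype.ext (by simp [mul_assoc])
    rw [e] at h
    have h' : Y ⟨x * (t : G) * x⁻¹, hxT t⟩ = (B⁻¹)ᵀ * (Y t⁻¹)ᵀ * Bᵀ := by
      rw [Matrix.mul_assoc, ← Matrix.transpose_mul, h, ← Matrix.transpose_mul, Matrix.mul_assoc,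
        Matrix.mul_nonsing_inv _ hB, Matrix.mul_one, Matrix.transpose_transpose]
    rw [map_mul, map_mul, h']
    congr 1
    rw [show (B⁻¹)ᵀ * (Y t⁻¹)ᵀ * B * Y t =
        (B⁻¹)ᵀ * (Y t⁻¹)ᵀ * (Bᵀ * Y ⟨x * x, hz⟩) * Y t by rw [hsym]]
    simp only [Matrix.mul_assoc]
  rw [Finset.sum_congr rfl fun t _ => key t]
  simp only [Matrix.trace, Matrix.diag, Matrix.mul_apply, Matrix.transpose_apply, Finset.sum_mul]
  calc ∑ t : T, ∑ a, ∑ e, ∑ c, ∑ b, B⁻¹ b a * Y t⁻¹ c b * B c e * Y t e a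
      = ∑ a, ∑ e, ∑ c, ∑ b, B⁻¹ b a * B c e * ∑ t : T, Y t e a * Y t⁻¹ c b := by
        rw [Finset.sum_comm]; refine Finset.sum_congr rfl fun a _ => ?_
        rw [Finset.sum_comm]; refine Finset.sum_congr rfl fun e _ => ?_
        rw [Finset.sum_comm]; refine Finset.sum_congr rfl fun c _ => ?_
        rw [Finset.sum_comm]; refine Finset.sum_congr rfl fun b _ => ?_
        rw [Finset.mul_sum]
        exact Finset.sum_congr rfl fun t _ => by ring
    _ = ((Nat.card T : ℂ) / Fintype.card (Fin d)) * (B⁻¹ * B).trace := by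
        simp only [sum_entries_self Y (matIrr_norm D hNT hY), ite_and, mul_ite, mul_zero,
          Finset.sum_ite_eq, Finset.mem_univ, if_true]
        simp only [Matrix.trace, Matrix.diag, Matrix.mul_apply, Finset.mul_sum]
        rw [Finset.sum_comm]
        exact Finset.sum_congr rfl fun _ _ => Finset.sum_congr rfl fun _ _ => by ring
    _ = Nat.card T := by
        rw [Matrix.nonsing_inv_mul _ hB, Matrix.trace_one, div_mul_cancel₀]
        exact Nat.cast_ne_zero.2 Fintype.card_ne_zero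

omit hNT hY in
/-- Off the twisting coset the sum over a coset of `N` vanishes. -/
theorem sum_coset_eq_zero {g : G} (hne : ∃ m, (D.X (cj N g m⁻¹)).trace ≠ (D.X m).trace)
    (W : Matrix (Fin d) (Fin d) ℂ) : ∑ m : N, (D.X (cj N g m) * W * D.X m).trace = 0 := by
  let X' : N →* Matrix (Fin d) (Fin d) ℂ :=
    { toFun := fun m => (D.X (cj N g m⁻¹))ᵀ
      map_one' := by simp
      map_mul' := fun a b => by
        rw [← Matrix.transpose_mul, ← map_mul, ← map_mul, ← _root_.mul_inv_rev] }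
  have hzero : ∀ a b c e, ∑ m : N, D.X (cj N g m) a b * D.X m c e = 0 := by
    intro a b c e
    have h := sum_entries_eq_zero D.X X' D.irr (by
      obtain ⟨m, hm⟩ := hne
      exact ⟨m, fun h => hm ((Matrix.trace_transpose _).symm.trans h)⟩) b a c e
    rw [← h]
    refine Fintype.sum_equiv (Equiv.inv N) _ _ fun m => ?_
    show _ = (D.X (cj N g (m⁻¹)⁻¹))ᵀ b a * D.X (m⁻¹)⁻¹ c e
    rw [inv_inv, Matrix.transpose_apply]
  simp only [Matrix.trace, Matrix.diag, Matrix.mul_apply, Finset.sum_mul]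
  rw [Finset.sum_comm]; refine Finset.sum_eq_zero fun a _ => ?_
  rw [Finset.sum_comm]; refine Finset.sum_eq_zero fun c _ => ?_
  rw [Finset.sum_comm]; refine Finset.sum_eq_zero fun b _ => ?_
  rw [show ∑ m : N, D.X (cj N g m) a b * W b c * D.X m c a =
      W b c * ∑ m : N, D.X (cj N g m) a b * D.X m c a from by
    rw [Finset.mul_sum]; exact Finset.sum_congr rfl fun _ _ => by ring, hzero, mul_zero]

end Setting

end CfsgLib.DefectZeroTwist
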