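import Cfsg.Prelude.Def_Blocks
import Cfsg.Agent.Eq.Def_Blocks
import Cfsg.Agent.DefectZeroTwist.Form
import Cfsg.Agent.Chars.Brauer.Defect
import Cfsg.Agent.Chars.Induced.Clifford
import Cfsg.Agent.Chars.Basic.ClassSum
import Mathlib.GroupTheory.Sylow

/-!
# A real extension of orthogonal type over a character of `2`-defect zero
-/

set_option autoImplicit false
set_option linter.unusedSectionVars false

namespace CfsgLib.DefectZeroTwist

open Cfsg Matrix CfsgLib.FrobSchur CfsgLib.Chars CfsgLib.Chars.Induced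
open scoped ComplexConjugate

universe u

variable {G : Type u} [Group G] [Fintype G]

theorem exists_two_sylow (N : Subgroup G) [N.Normal] (h2 : IsPGroup 2 (G ⧸ N)) :
    ∃ S : Subgroup G, IsPGroup 2 S ∧ N ⊔ S = ⊤ ∧ ¬ 2 ∣ (S.subgroupOf N).index := by
  haveI := Fact.mk Nat.prime_two
  obtain ⟨P⟩ : Nonempty (Sylow 2 G) := inferInstance
  have hodd : ¬ 2 ∣ (P : Subgroup G).index := P.not_dvd_index
  have hsup : N ⊔ (P : Subgroup G) = ⊤ := by
    rw [← Subgroup.index_eq_one]
    obtain ⟨k, hk⟩ := IsPGroup.iff_card.1 h2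
    have h1 : (N ⊔ (P : Subgroup G)).index ∣ 2 ^ k := by
      rw [← hk, ← Subgroup.index_eq_card]; exact Subgroup.index_dvd_of_le le_sup_left
    obtain ⟨j, -, hj⟩ := (Nat.dvd_prime_pow Nat.prime_two).1 h1
    rcases j with _ | j
    · rwa [pow_zero] at hj
    · exfalso
      apply hodd
      exact (hj ▸ dvd_pow_self 2 (Nat.succ_ne_zero j)).trans (Subgroup.index_dvd_of_le le_sup_right)
  refine ⟨P, P.2, hsup, ?_⟩
  have hrel : N.relIndex (P : Subgroup G) = N.index := by
    rw [← Subgroup.relIndex_sup_right (H := (P : Subgroup G)) (K := N), sup_comm, hsup,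
      Subgroup.relIndex_top_right]
  have hQ : ((P : Subgroup G).subgroupOf N).index = (P : Subgroup G).index := by
    have e1 : Nat.card ((N ⊓ P : Subgroup G)) * ((P : Subgroup G).relIndex N) = Nat.card N := by
      rw [Nat.card_congr (Subgroup.subgroupOfEquivOfLe inf_le_left).toEquiv.symm,
        ← Subgroup.inf_relIndex_left]
      exact Subgroup.card_mul_index _
    have e2 : Nat.card ((N ⊓ P : Subgroup G)) * N.relIndex (P : Subgroup G) = Nat.card P := by
      rw [Nat.card_congr (Subgroup.subgroupOfEquivOfLe inf_le_right).toEquiv.symm,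
        ← Subgroup.inf_relIndex_right]
      exact Subgroup.card_mul_index _
    rw [hrel] at e2
    have e3 : Nat.card N * N.index = Nat.card P * (P : Subgroup G).index := by
      rw [Subgroup.card_mul_index, Subgroup.card_mul_index]
    rw [← e1, ← e2, mul_right_comm] at e3
    exact Nat.eq_of_mul_eq_mul_left (Nat.mul_pos Nat.card_pos
      (Nat.pos_of_ne_zero Subgroup.index_ne_zero_of_finite)) e3
  rwa [hQ]

theorem exists_setting (N : Subgroup G) [N.Normal] [Fintype N] (h2 : IsPGroup 2 (G ⧸ N))
    (φ : IrrCharacter N)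
    (hdef : 2 ^ (Nat.card N).factorization 2 ∣ charDegree (φ : N → ℂ)) :
    ∃ (S : Subgroup G) (_ : Fintype (S.subgroupOf N)) (d r : ℕ) (D : Setting N S d r),
      ∀ m, (D.X m).trace = (φ : N → ℂ) m := by
  obtain ⟨d, ρ, hρ, hφ⟩ := φ.2
  obtain ⟨S, hS, hsup, hQ⟩ := exists_two_sylow N h2
  haveI := Fintype.ofFinite (S.subgroupOf N)
  haveI := Fact.mk Nat.prime_two
  have htr : ∀ m, (mat ρ m).trace = (φ : N → ℂ) m := fun m => by rw [trace_mat, hφ]
  have hidem : proj S (mat ρ) * proj S (mat ρ) = proj S (mat ρ) := by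
    conv_lhs => arg 1; rw [proj]
    rw [Matrix.smul_mul, Matrix.sum_mul]
    have h : ∀ q : S.subgroupOf N, mat ρ q * proj S (mat ρ) = proj S (mat ρ) := fun q => by
      rw [proj, Matrix.mul_smul, Matrix.mul_sum]
      congr 1
      exact Fintype.sum_equiv (Equiv.mulLeft q) _ _ fun q' => (map_mul _ _ _).symm
    rw [Finset.sum_congr rfl fun q _ => h q, Finset.sum_const, Finset.card_univ,
      ← Nat.card_eq_fintype_card, ← Nat.cast_smul_eq_nsmul ℂ, smul_smul,
      inv_mul_cancel₀ (Nat.cast_ne_zero.2 Nat.card_pos.ne'), one_smul]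
  obtain ⟨r, M, L, hML, hLM, hr⟩ := exists_factor hidem
  -- the dimension of the fixed space
  have hd : charDegree (φ : N → ℂ) = d := by
    refine charDegree_eq_of_map_one ?_
    rw [← htr, map_one, Matrix.trace_one, Fintype.card_fin]
  set a := (Nat.card N).factorization 2 with ha
  have hN2 : ¬ 2 ∣ Nat.card N / 2 ^ a :=
    Nat.not_dvd_ordCompl Nat.prime_two Nat.card_pos.ne'
  have hNeq : Nat.card N = 2 ^ a * (Nat.card N / 2 ^ a) := (Nat.ordProj_mul_ordCompl_eq_self _ _).symm
  have hQcard : Nat.card (S.subgroupOf N) = 2 ^ a := by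
    obtain ⟨b, hb⟩ := IsPGroup.iff_card.1 (show IsPGroup 2 (S.subgroupOf N) from IsPGroup.comap_subtype hS)
    rw [hb]
    congr 1
    have e := (S.subgroupOf N).card_mul_index
    rw [ha, ← e, hb, Nat.factorization_mul (by positivity) Subgroup.index_ne_zero_of_finite,
      Nat.factorization_pow, Finsupp.add_apply, Finsupp.smul_apply, Nat.prime_two.factorization_self,
      Nat.factorization_eq_zero_of_not_dvd hQ, smul_eq_mul, mul_one, add_zero]
  have hzero : ∀ q : S.subgroupOf N, q ≠ 1 → (φ : N → ℂ) q = 0 := by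
    intro q hq
    refine Brauer.eq_zero_of_defect_zero Nat.prime_two φ hNeq hN2 hdef ?_
    obtain ⟨k, hk⟩ := IsPGroup.iff_orderOf.1
      (show IsPGroup 2 (S.subgroupOf N) from IsPGroup.comap_subtype hS) q
    rw [show orderOf (q : N) = orderOf q from Subgroup.orderOf_coe q, hk]
    refine dvd_pow_self 2 fun h0 => hq ?_
    rw [h0, pow_zero, orderOf_eq_one_iff] at hk
    exact hk
  have hrd : (2 : ℕ) ^ a * r = d := by
    have h : ((Nat.card (S.subgroupOf N) : ℕ) : ℂ)⁻¹ * d = r := by
      rw [← hr, proj, Matrix.trace_smul, Matrix.trace_sum, smul_eq_mul,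
        Finset.sum_eq_single (1 : S.subgroupOf N) (fun q _ hq => (htr _).trans (hzero q hq))
          (fun h => absurd (Finset.mem_univ _) h),
        OneMemClass.coe_one, map_one, Matrix.trace_one, Fintype.card_fin]
    rw [hQcard, inv_mul_eq_iff_eq_mul₀ (Nat.cast_ne_zero.2 (by positivity))] at h
    exact_mod_cast h.symm
  have hodd : Odd r := by
    have h1 := charDegree_dvd_card φ
    rw [hd, ← hrd, hNeq] at h1
    have h2' := Nat.dvd_of_mul_dvd_mul_left (by positivity) h1
    rw [← Nat.not_even_iff_odd, even_iff_two_dvd]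
    exact fun h => hN2 (h.trans h2')
  exact ⟨S, inferInstance, d, r, ⟨mat ρ, matIrr_mat ρ hρ, hsup, hS, M, L, hML, hLM, hodd⟩, htr⟩

theorem main (N : Subgroup G) [N.Normal] [Fintype N] (h2 : IsPGroup 2 (G ⧸ N))
    (φ : IrrCharacter N) (hdef : 2 ^ (Nat.card N).factorization 2 ∣ charDegree (φ : N → ℂ))
    (hconj : ∃ g : G, ∀ n n' : N, (n' : G) = g * (n : G) * g⁻¹ →
      (φ : N → ℂ) n' = conj ((φ : N → ℂ) n)) :
    ∃ χ : IrrCharacter G, (Nat.card G : ℂ)⁻¹ * ∑ g : G, (χ : G → ℂ) (g * g) = 1 ∧
      classInner (fun n : N => (χ : G → ℂ) n) (φ : N → ℂ) = 1 := by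
  classical
  obtain ⟨S, _, d, r, D, htr⟩ := exists_setting N h2 φ hdef
  have hinvφ : ∀ m : N, conj ((φ : N → ℂ) m) = (φ : N → ℂ) m⁻¹ := fun m => by
    rw [← htr, ← htr, conj_trace]
  have hcls := isClassFunction_coe φ
  -- replace the twisting element by one in `S`
  obtain ⟨x, hx, hx'⟩ : ∃ x ∈ S, ∀ m : N, (φ : N → ℂ) (cj N x m) = (φ : N → ℂ) m⁻¹ := by
    obtain ⟨g, hg⟩ := hconj
    have hg' : g ∈ N ⊔ S := by rw [D.sup]; trivial
    obtain ⟨n, hn, x, hx, rfl⟩ := Subgroup.mem_sup_of_normal_left.1 hg'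
    refine ⟨x, hx, fun m => ?_⟩
    have h := hg m (cj N (n * x) m) (cj_coe _ _)
    rw [hinvφ, ← cj_cj] at h
    rw [← h, show cj N n (cj N x m) = ⟨n, hn⟩ * cj N x m * (⟨n, hn⟩ : N)⁻¹ from
      Subtype.ext (by simp [cj_coe])]
    exact (hcls _ _).symm
  set T := inertia N (φ : N → ℂ) with hT
  haveI := Fintype.ofFinite T
  have hNT : N ≤ T := le_inertia hcls
  have hTmem : ∀ y, y ∈ T ↔ ∀ m, (φ : N → ℂ) (cj N y m) = (φ : N → ℂ) m := fun y => by
    rw [hT, mem_inertia_iff_forall]
    constructor
    · exact fun h m => h m _ (cj_coe y m)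
    · intro h m m' he
      rw [show m' = cj N y m from Subtype.ext (he.trans (cj_coe y m).symm), h]
  obtain ⟨Y, hY⟩ := D.exists_norm hNT (fun t ht m => by rw [htr, htr]; exact (hTmem t).1 ht m)
  have htw : ∀ m, (D.X (cj N x m⁻¹)).trace = (D.X m).trace := fun m => by
    rw [htr, htr, hx', inv_inv]
  have hxinv : ∀ m, (φ : N → ℂ) (cj N x⁻¹ m) = (φ : N → ℂ) m⁻¹ := fun m => by
    have h := hx' (cj N x⁻¹ m⁻¹)
    rw [cj_cj, mul_inv_cancel, ← map_inv, inv_inv] at h
    rw [show cj N (1 : G) m⁻¹ = m⁻¹ from Subtype.ext (by rw [cj_coe]; simp)] at h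
    exact h.symm
  have hxT : ∀ t : T, x * t * x⁻¹ ∈ T := fun t => (hTmem _).2 fun m => by
    rw [← cj_cj, ← cj_cj, hx', ← map_inv, (hTmem _).1 t.2, ← map_inv, hxinv, inv_inv]
  have hz : x * x ∈ T := (hTmem _).2 fun m => by
    rw [← cj_cj, hx', ← map_inv, hx', inv_inv]
  set θ : T → ℂ := fun t => (Y t).trace with hθ
  have hθchar : IsCharacter T θ := isCharacter_of_matrixHom Y
  have hθirr : IsIrrCharacter T θ := by
    refine isIrrCharacter_of_classInner_self hθchar ?_
    have h := sum_trace_trace Y (D.matIrr_norm hNT hY)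
    simp only [classInner, hθ, conj_trace]
    rw [h, inv_mul_cancel₀ (Nat.cast_ne_zero.2 Nat.card_pos.ne')]
  have hres : ∀ m : N, extendByZero T θ (m : G) = (φ : N → ℂ) m := fun m => by
    rw [extendByZero_mem θ (hNT m.2), hθ, ← htr]
    exact congrArg Matrix.trace (hY.ext m _)
  have hθN : (fun n : N => θ (Subgroup.inclusion hNT n)) = (φ : N → ℂ) := funext fun m => by
    rw [← htr]; exact congrArg Matrix.trace (hY.ext m _)
  have hirr : IsIrrCharacter G (indFun T θ) :=
    isIrrCharacter_indFun_inertia (θ := φ) hT hNT ⟨θ, hθirr⟩ (by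
      show mult (fun n : N => θ (Subgroup.inclusion hNT n)) φ ≠ 0
      rw [hθN, mult_irr, if_pos rfl]; exact one_ne_zero)
  refine ⟨⟨indFun T θ, hirr⟩, ?_, ?_⟩
  · -- the indicator
    show (Nat.card G : ℂ)⁻¹ * ∑ g : G, indFun T θ (g * g) = 1
    have hsum : ∑ g : G, extendByZero T θ (g * g) = Nat.card T := by
      set F : G → ℂ := fun g => extendByZero T θ (g * g) with hF
      set p : G → Prop := fun g => x⁻¹ * g ∈ T with hp
      rw [← Finset.sum_filter_add_sum_filter_not Finset.univ p]
      have h1 : ∑ g ∈ Finset.univ.filter p, F g = Nat.card T := by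
        rw [← D.sum_twisted hNT hY hx htw hxT hz,
          Finset.sum_subtype (Finset.univ.filter p) (p := p) (fun g => by simp) F]
        refine (Fintype.sum_equiv ((Equiv.mulLeft x).subtypeEquiv (p := (· ∈ T)) (q := p)
          (fun t => by simp [hp])) _ _ fun t => ?_).symm
        show _ = extendByZero T θ (x * (t : G) * (x * t))
        have e : x * (t : G) * (x * t) =
            ((⟨x * (t : G) * x⁻¹, hxT t⟩ * ⟨x * x, hz⟩ * t : T) : G) := by
          simp [mul_assoc]
        rw [e, extendByZero_coe]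
      have h2' : ∑ g ∈ Finset.univ.filter (fun g => ¬ p g), F g = 0 := by
        set R := Finset.univ.filter fun g => ¬ p g with hR
        have hne : ∀ g ∈ R, ∑ m : N, F (g * m) = 0 := by
          intro g hg
          simp only [hR, hp, Finset.mem_filter, Finset.mem_univ, true_and] at hg
          by_cases hgg : g * g ∈ T
          · have e : ∀ m : N, F (g * m) =
                (D.X (cj N g m) * Y ⟨g * g, hgg⟩ * D.X m).trace := fun m => by
              have h : g * (m : G) * (g * m) =
                  ((⟨(cj N g m : G), hNT (cj N g m).2⟩ * ⟨g * g, hgg⟩ * ⟨(m : G), hNT m.2⟩ : T)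
                    : G) := by simp [cj_coe, mul_assoc]
              rw [hF]; dsimp only
              rw [h, extendByZero_coe, hθ]
              simp only [map_mul, hY.ext]
            rw [Finset.sum_congr rfl fun m _ => e m]
            refine D.sum_coset_eq_zero ?_ _
            by_contra hne
            push Not at hne
            refine hg ((hTmem _).2 fun m => ?_)
            have h' := hne m
            rw [htr, htr] at h'
            rw [← cj_cj, hxinv, ← map_inv, h']
          · refine Finset.sum_eq_zero fun m _ => extendByZero_notMem _ fun h => hgg ?_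
            have e : g * g = (cj N g m : G)⁻¹ * (g * m * (g * m)) * (m : G)⁻¹ := by
              simp [cj_coe, mul_assoc]
            rw [e]
            exact T.mul_mem (T.mul_mem (T.inv_mem (hNT (cj N g m).2)) h) (T.inv_mem (hNT m.2))
        have hshift : ∀ m : N, ∑ g ∈ R, F (g * m) = ∑ g ∈ R, F g := fun m => by
          refine Finset.sum_equiv (Equiv.mulRight (m : G)) (fun g => ?_) (fun _ _ => rfl)
          simp only [hR, hp, Finset.mem_filter, Finset.mem_univ, true_and, Equiv.coe_mulRight,
            ← mul_assoc]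
          rw [T.mul_mem_cancel_right (hNT m.2)]
        have h := Finset.sum_comm (s := R) (t := (Finset.univ : Finset N)) (f := fun g m => F (g * m))
        rw [Finset.sum_eq_zero hne, Finset.sum_congr rfl fun m _ => hshift m, Finset.sum_const,
          Finset.card_univ, nsmul_eq_mul, eq_comm, mul_eq_zero] at h
        exact h.resolve_left (Nat.cast_ne_zero.2 Fintype.card_ne_zero)
      rw [h1, h2', add_zero]
    simp only [indFun]
    rw [← Finset.mul_sum, Finset.sum_comm,
      Finset.sum_congr rfl fun y _ => ?_, Finset.sum_const, Finset.card_univ, nsmul_eq_mul,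
      ← Nat.card_eq_fintype_card]
    pick_goal 2
    · exact (Nat.card T : ℂ)
    · rw [mul_left_comm _ (Nat.card G : ℂ), inv_mul_cancel₀ (card_subgroup_ne_zero T), mul_one,
        inv_mul_cancel₀ card_ne_zero']
    · rw [← hsum]
      refine Fintype.sum_equiv (MulAut.conj y⁻¹).toEquiv _ _ fun g => ?_
      simp [mul_assoc]
  · -- the multiplicity
    show classInner (fun n : N => indFun T θ (n : G)) (φ : N → ℂ) = 1
    have hval : (fun n : N => indFun T θ (n : G)) =
        (Nat.card T : ℂ)⁻¹ • ∑ y : G, conjFun N y (φ : N → ℂ) := funext fun n => by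
      simp only [indFun, Pi.smul_apply, Finset.sum_apply, smul_eq_mul]
      congr 1
      refine Finset.sum_congr rfl fun y _ => ?_
      rw [conjFun_apply, ← hres]
    rw [hval, CfsgLib.Chars.classInner_smul_left, CfsgLib.Chars.classInner_sum_left]
    have h : ∀ y : G, classInner (conjFun N y (φ : N → ℂ)) (φ : N → ℂ) = if y ∈ T then 1 else 0 := by
      intro y
      by_cases hy : y ∈ T
      · rw [if_pos hy, mem_inertia.1 hy, classInner_self]
      · rw [if_neg hy]
        exact classInner_of_ne (χ := conjIrr y φ) fun h => hy (mem_inertia.2 (congrArg Subtype.val h))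
    rw [Finset.sum_congr rfl fun y _ => h y, Finset.sum_boole, ← Fintype.card_subtype,
      ← Nat.card_eq_fintype_card]
    exact inv_mul_cancel₀ (card_subgroup_ne_zero T)

end CfsgLib.DefectZeroTwist
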