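import Cfsg.Agent.Chars.FrobSchur.Basic
import Mathlib.LinearAlgebra.Matrix.NonsingularInverse
import Mathlib.FieldTheory.IsAlgClosed.Basic

/-!
# Matrix lemmas: Schur relations, determinants on the image of an idempotent
-/

set_option autoImplicit false

namespace CfsgLib.DefectZeroTwist

open Matrix CfsgLib.FrobSchur

variable {G : Type*} [Group G] [Fintype G] {n : Type*} [Fintype n] [DecidableEq n]
  (X Y : G →* Matrix n n ℂ)

/-- Averaged intertwiner. -/
noncomputable def avgTo (E : Matrix n n ℂ) : Matrix n n ℂ := ∑ g : G, Y g * E * X g⁻¹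

theorem avgTo_mul (E : Matrix n n ℂ) (h : G) : avgTo X Y E * X h = Y h * avgTo X Y E := by
  rw [avgTo, Matrix.sum_mul, Matrix.mul_sum]
  refine Fintype.sum_equiv (Equiv.mulLeft h⁻¹) _ _ fun g => ?_
  simp only [Equiv.coe_mulLeft, _root_.mul_inv_rev, inv_inv, map_mul]
  simp only [Matrix.mul_assoc]
  rw [← Matrix.mul_assoc (Y h) (Y h⁻¹), X_mul_inv, Matrix.one_mul]

theorem avgTo_single_apply (i j k l : n) :
    avgTo X Y (Matrix.single j k 1) i l = ∑ g : G, Y g i j * X g⁻¹ k l := by
  rw [avgTo, Matrix.sum_apply]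
  refine Finset.sum_congr rfl fun g _ => ?_
  simp [Matrix.mul_apply, Matrix.single_apply, ite_and, Finset.sum_mul]

theorem trace_eq_of_intertwiner {X Y : G →* Matrix n n ℂ} (hX : MatIrr X) {A : Matrix n n ℂ}
    (hA : A ≠ 0) (h : ∀ g, A * X g = Y g * A) (g : G) : (Y g).trace = (X g).trace := by
  have hu := (Matrix.isUnit_iff_isUnit_det A).1 (isUnit_of_intertwines hX hA (fun g => Y g) h)
  have e : Y g = A * X g * A⁻¹ := by
    rw [h, Matrix.mul_assoc, Matrix.mul_nonsing_inv _ hu, Matrix.mul_one]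
  rw [e, Matrix.trace_mul_cycle, Matrix.nonsing_inv_mul _ hu, Matrix.one_mul]

/-- First Schur relation. -/
theorem sum_entries_eq_zero (hX : MatIrr X) (hne : ∃ g, (Y g).trace ≠ (X g).trace) (i j k l : n) :
    ∑ g : G, Y g i j * X g⁻¹ k l = 0 := by
  rw [← avgTo_single_apply]
  by_contra h0
  obtain ⟨g, hg⟩ := hne
  refine hg (trace_eq_of_intertwiner hX (A := avgTo X Y (Matrix.single j k 1)) (fun e => h0 ?_)
    (avgTo_mul X Y _) g)
  rw [e, Matrix.zero_apply]

/-- Second Schur relation. -/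
theorem sum_entries_self (hX : MatIrr X) (i j k l : n) :
    ∑ g : G, X g i j * X g⁻¹ k l =
      if i = l ∧ j = k then (Nat.card G : ℂ) / Fintype.card n else 0 := by
  haveI := hX.1
  rw [← avgTo_single_apply]
  obtain ⟨c, hc⟩ := schur hX (avgTo_mul X X (Matrix.single j k 1))
  have h1 : (avgTo X X (Matrix.single j k 1)).trace =
      (Nat.card G : ℂ) * (if j = k then 1 else 0) := by
    rw [avgTo, Matrix.trace_sum]
    simp only [Matrix.trace_mul_cycle _ _ (X (_ : G)⁻¹), X_inv_mul, Matrix.one_mul]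
    rw [Finset.sum_const, Finset.card_univ, nsmul_eq_mul, Nat.card_eq_fintype_card]
    congr 1
    by_cases h₂ : j = k
    · subst h₂; simp
    · rw [if_neg h₂, Matrix.trace_single_eq_of_ne _ _ _ h₂]
  rw [hc, Matrix.trace_smul, Matrix.trace_one, smul_eq_mul] at h1
  have hn : (Fintype.card n : ℂ) ≠ 0 := Nat.cast_ne_zero.2 Fintype.card_ne_zero
  have hc' : c = (Nat.card G : ℂ) / Fintype.card n * (if j = k then 1 else 0) := by
    field_simp
    linear_combination h1
  rw [hc, Matrix.smul_apply, hc', Matrix.one_apply]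
  by_cases h₁ : i = l <;> by_cases h₂ : j = k <;> simp [h₁, h₂]

theorem sum_trace_trace (hX : MatIrr X) :
    ∑ g : G, (X g).trace * (X g⁻¹).trace = Nat.card G := by
  haveI := hX.1
  simp only [Matrix.trace, Matrix.diag, Finset.sum_mul, Finset.mul_sum]
  rw [Finset.sum_comm]
  rw [show ∑ y : n, ∑ g : G, ∑ z : n, X g z z * X g⁻¹ y y =
      ∑ y : n, ∑ z : n, ∑ g : G, X g z z * X g⁻¹ y y from
    Finset.sum_congr rfl fun _ _ => Finset.sum_comm]
  simp only [sum_entries_self X hX, and_self]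
  rw [Finset.sum_congr rfl fun y _ => Finset.sum_ite_eq' Finset.univ y _]
  simp [mul_div_cancel₀]

/-- Equal characters give an intertwiner. -/
theorem exists_intertwiner (hX : MatIrr X) (h : ∀ g, (Y g).trace = (X g).trace) :
    ∃ A : Matrix n n ℂ, IsUnit A.det ∧ ∀ g, A * X g = Y g * A := by
  haveI := hX.1
  by_cases h0 : ∀ j k, avgTo X Y (Matrix.single j k 1) = 0
  · exfalso
    have h2 := sum_trace_trace X hX
    simp only [← h] at h2
    have h3 : ∑ g : G, (Y g).trace * (X g⁻¹).trace = 0 := by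
      simp only [Matrix.trace, Matrix.diag, Finset.sum_mul, Finset.mul_sum]
      rw [Finset.sum_comm]
      refine Finset.sum_eq_zero fun y _ => ?_
      rw [Finset.sum_comm]
      refine Finset.sum_eq_zero fun z _ => ?_
      rw [← avgTo_single_apply, h0, Matrix.zero_apply]
    have h4 : (Nat.card G : ℂ) = 0 := by
      rw [← h2, ← h3]
      exact Finset.sum_congr rfl fun g _ => by rw [h g⁻¹]
    exact Nat.card_pos.ne' (Nat.cast_eq_zero.1 h4)
  · push Not at h0
    obtain ⟨j, k, hjk⟩ := h0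
    exact ⟨_, (Matrix.isUnit_iff_isUnit_det _).1
      (isUnit_of_intertwines hX hjk (fun g => Y g) (avgTo_mul X Y _)), avgTo_mul X Y _⟩

/-- An idempotent matrix factors. -/
theorem exists_factor {P : Matrix n n ℂ} (hP : P * P = P) :
    ∃ (r : ℕ) (M : Matrix n (Fin r) ℂ) (L : Matrix (Fin r) n ℂ),
      M * L = P ∧ L * M = 1 ∧ P.trace = r := by
  classical
  set W := LinearMap.range P.mulVecLin
  let b := Module.finBasis ℂ W
  have hfix : ∀ w ∈ W, P.mulVecLin w = w := by
    rintro _ ⟨v, rfl⟩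
    rw [← LinearMap.comp_apply, ← Matrix.mulVecLin_mul, hP]
  refine ⟨Module.finrank ℂ W, LinearMap.toMatrix b (Pi.basisFun ℂ n) W.subtype,
    LinearMap.toMatrix (Pi.basisFun ℂ n) b P.mulVecLin.rangeRestrict, ?_, ?_, ?_⟩
  · rw [← LinearMap.toMatrix_comp, LinearMap.subtype_comp_codRestrict,
      LinearMap.toMatrix_eq_toMatrix']
    exact LinearMap.toMatrix'_toLin' P
  · rw [← LinearMap.toMatrix_comp, show P.mulVecLin.rangeRestrict ∘ₗ W.subtype = LinearMap.id from
      LinearMap.ext fun w => Subtype.ext (hfix w w.2), LinearMap.toMatrix_id]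
  · have h1 : LinearMap.toMatrix b (Pi.basisFun ℂ n) W.subtype *
        LinearMap.toMatrix (Pi.basisFun ℂ n) b P.mulVecLin.rangeRestrict = P := by
      rw [← LinearMap.toMatrix_comp, LinearMap.subtype_comp_codRestrict,
        LinearMap.toMatrix_eq_toMatrix']
      exact LinearMap.toMatrix'_toLin' P
    conv_lhs => rw [← h1, Matrix.trace_mul_comm, ← LinearMap.toMatrix_comp,
      show P.mulVecLin.rangeRestrict ∘ₗ W.subtype = LinearMap.id from
        LinearMap.ext fun w => Subtype.ext (hfix w w.2), LinearMap.toMatrix_id, Matrix.trace_one]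
    simp

theorem pow_shift {c : ℂ} {r : ℕ} (h : c ^ r = 1) (a : ℕ) : c ^ ((r + 1) ^ a) = c := by
  induction a with
  | zero => simp
  | succ a ih => rw [pow_succ, pow_mul, ih, pow_succ, h, one_mul]

end CfsgLib.DefectZeroTwist
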